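import Cfsg.Agent.DerG.Lin

/-! The linear bound for all sizes, by double counting. -/

set_option autoImplicit false
set_option linter.unusedSectionVars false

namespace Cfsg.Agent.DerG

open MulAction Subgroup

section

variable {p r : ℕ} [Fact p.Prime] [Fact r.Prime] {M V : Type*} [Group M] [Finite M]
  [AddCommGroup V] [Module (ZMod p) V] [Finite V] {ρ : Representation (ZMod p) M V}
  {A R : Subgroup M} {z : M}

/-- Elements of `A` that are central modulo `z`. -/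
def Cz.YY (hz : Cz r ρ A z) : Subgroup M where
  carrier := {x | x ∈ A ∧ ∀ a ∈ A, a * x * a⁻¹ * x⁻¹ ∈ zpowers z}
  one_mem' := ⟨A.one_mem, fun a _ => by simp⟩
  mul_mem' := fun {x y} hx hy => ⟨A.mul_mem hx.1 hy.1, fun a ha => by
    have := hz.cen' (hy.2 a ha) x hx.1
    rw [show a * (x * y) * a⁻¹ * (x * y)⁻¹ =
      a * x * a⁻¹ * x⁻¹ * (x * (a * y * a⁻¹ * y⁻¹) * x⁻¹) by group, this, mul_inv_cancel_right]
    exact mul_mem (hx.2 a ha) (hy.2 a ha)⟩
  inv_mem' := fun {x} hx => ⟨A.inv_mem hx.1, fun a ha => by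
    have := hz.cen' (inv_mem (hx.2 a ha)) x⁻¹ (A.inv_mem hx.1)
    rw [show a * x⁻¹ * a⁻¹ * x⁻¹⁻¹ = x⁻¹ * (a * x * a⁻¹ * x⁻¹)⁻¹ * x by group, this,
      inv_mul_cancel_right]
    exact inv_mem (hx.2 a ha)⟩

theorem Cz.YY_normal [hA : A.Normal] (hz : Cz r ρ A z) : hz.YY.Normal :=
  ⟨fun x hx g => ⟨hA.conj_mem x hx.1 g, fun a ha => by
    have := hz.conj_mem g (hx.2 _ (hA.conj_mem a ha g⁻¹))
    convert this using 1
    group⟩⟩

theorem Cz.mem_YY (hz : Cz r ρ A z) {x : M} (hx : x ∈ SS r A z) : x ∈ hz.YY := ⟨hx.1, hx.2.2⟩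

theorem Cz.mem_T (hz : Cz r ρ A z) {u : M} (hu : u ∈ hz.YY) (h1 : u ≠ 1) {v : V} (hv : v ≠ 0)
    (e : ρ u v = v) : u ∈ SS r A z \ zpowers z := by
  refine ⟨⟨hu.1, ?_, hu.2⟩, fun k => hv (hz.fpf' k h1 e)⟩
  by_contra h2
  refine hv (hz.fpf _ (A.pow_mem hu.1 r) (fun a ha => ?_) h2 v (linF_pow_fix e r))
  obtain ⟨c, hc, e1⟩ : ∃ c ∈ zpowers z, a * u * a⁻¹ = c * u := ⟨_, hu.2 a ha, by group⟩
  have h3 : c ^ r = 1 := by
    obtain ⟨k, rfl⟩ := mem_zpowers_iff.1 hc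
    rw [← zpow_natCast, ← zpow_mul, mul_comm, zpow_mul, zpow_natCast, hz.pow_eq, one_zpow]
  rw [← mul_inv_eq_iff_eq_mul, ← conj_pow, e1, Commute.mul_pow (hz.cen' hc u hu.1).symm, h3, one_mul]

/-- The double count. -/
theorem Lin.count (h : Lin r ρ A R) (hz : Cz r ρ A z) {v : V} (hv : v ≠ 0) {w : ℕ}
    (hw : ∀ y ∈ SS r A z \ zpowers z, Nat.card (fx ρ {y}) ≤ w + 1) :
    ∃ s, {u | u ∈ hz.YY ∧ ρ u v = v}.ncard = s + 1 ∧
      R.index * Nat.card hz.YY * s ≤ (s + 1) * (SS r A z \ zpowers z).ncard * w := by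
  classical
  let _ := ract ρ
  have := h.nA
  have h0 : (1 : M) ∈ {u | u ∈ hz.YY ∧ ρ u v = v} :=
    ⟨one_mem _, by rw [map_one, Module.End.one_apply]⟩
  refine ⟨_, (Set.ncard_sdiff_singleton_add_one h0).symm, ?_⟩
  rw [Set.ncard_sdiff_singleton_add_one h0]
  have h1 := relIndex_mul_orb (K := ⊤) (D := R) (x := v) fun k _ e => by
    by_contra hn
    exact hv (h.fpf k hn v e)
  have h2 : (orb hz.YY v).ncard ≤ (orb (⊤ ⊓ R) v).ncard :=
    Set.ncard_le_ncard (fun _ ⟨k, hk, e⟩ => ⟨k, ⟨trivial, h.le hk.1⟩, e⟩) (Set.toFinite _)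
  have h3 : {u | u ∈ hz.YY ∧ ρ u v = v}.ncard * (orb hz.YY v).ncard = Nat.card hz.YY := by
    have := relIndex_mul_relIndex ⊥ (hz.YY ⊓ stabilizer M v) hz.YY bot_le inf_le_left
    rw [relIndex_bot_left, relIndex_bot_left, inf_relIndex_left, ← ncard_orb] at this
    rw [← this, ← Nat.card_coe_set_eq]
    rfl
  have h4 : (orb (⊤ : Subgroup M) v).ncard * ({u | u ∈ hz.YY ∧ ρ u v = v} \ {1}).ncard ≤
      (SS r A z \ zpowers z).ncard * w := by
    rw [Set.ncard_eq_toFinset_card (orb ⊤ v), Set.ncard_eq_toFinset_card (SS r A z \ zpowers z)]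
    refine Finset.card_mul_le_card_mul (fun v' y => ρ y v' = v') (fun v' hv' => ?_) fun y hy => ?_
    · obtain ⟨g, -, rfl⟩ := (Set.Finite.mem_toFinset _).1 hv'
      rw [← Set.ncard_coe_finset]
      refine Set.ncard_le_ncard_of_injOn (fun u => g * u * g⁻¹) (fun u hu => ?_)
        (fun a _ b _ e => by simpa using e) (Set.toFinite _)
      have := hz.mem_T hu.1.1 hu.2 hv hu.1.2
      rw [Finset.mem_coe, Finset.mem_bipartiteAbove, Set.Finite.mem_toFinset]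
      refine ⟨⟨hz.conj_mem_SS g this.1, hz.conj_notMem g this.2⟩, ?_⟩
      change ρ (g * u * g⁻¹) (ρ g v) = ρ g v
      rw [← rep_mul, inv_mul_cancel_right, rep_mul, hu.1.2]
    · have h5 := hw y ((Set.Finite.mem_toFinset _).1 hy)
      rw [← SetLike.coe_sort_coe, Nat.card_coe_set_eq, ← Set.ncard_sdiff_singleton_add_one
        (show (0 : V) ∈ (fx ρ {y} : Set V) from zero_mem _)] at h5
      rw [← Set.ncard_coe_finset]
      refine le_trans (Set.ncard_le_ncard (fun u hu => ?_) (Set.toFinite _))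
        (Nat.le_of_add_le_add_right h5)
      rw [Finset.mem_coe, Finset.mem_bipartiteBelow, Set.Finite.mem_toFinset] at hu
      obtain ⟨⟨g, -, rfl⟩, e⟩ := hu
      exact ⟨mem_fx_one.2 e, fun e => hv (rep_injective ρ g (e.trans (map_zero _).symm))⟩
  rw [relIndex_top_right] at h1
  rw [← h3, mul_assoc _ _ w]
  refine le_trans ?_ (Nat.mul_le_mul_left _ h4)
  rw [← h1]
  calc _ = {u | u ∈ hz.YY ∧ ρ u v = v}.ncard * (R.index * (orb hz.YY v).ncard *
        ({u | u ∈ hz.YY ∧ ρ u v = v} \ {1}).ncard) := by ring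
    _ ≤ _ := by gcongr

theorem exists_max_fx (T : Set M) {n k : ℕ} (hn : 1 ≤ n)
    (hT : ∀ y ∈ T, Nat.card (fx ρ {y}) ^ k ≤ n) :
    ∃ w, (w + 1) ^ k ≤ n ∧ ∀ y ∈ T, Nat.card (fx ρ {y}) ≤ w + 1 := by
  rcases T.eq_empty_or_nonempty with rfl | hne
  · exact ⟨0, by simpa using hn, fun y hy => hy.elim⟩
  obtain ⟨y, hy, hm⟩ := Set.exists_max_image T (fun y => Nat.card (fx ρ {y})) (Set.toFinite _) hne
  have : 0 < Nat.card (fx ρ {y}) := Nat.card_pos
  refine ⟨Nat.card (fx ρ {y}) - 1, ?_, ?_⟩ <;> rw [Nat.sub_add_cancel this]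
  exacts [hT y hy, hm]

theorem Cz.ncard_T_le (hz : Cz r ρ A z) : (SS r A z \ zpowers z).ncard ≤ Nat.card hz.YY := by
  rw [← SetLike.coe_sort_coe, Nat.card_coe_set_eq]
  exact Set.ncard_le_ncard (fun y hy => hz.mem_YY hy.1) (Set.toFinite _)

theorem Lin.odd_all (h : Lin r ρ A R) (hz : Cz r ρ A z) (hr : r ≠ 2) {x : M} (hx : x ∈ A)
    (h1 : x ≠ 1) {v : V} (hv : v ≠ 0) (hxv : ρ x v = v) : (R.index + 1) ^ 2 ≤ Nat.card V := by
  have : Nontrivial V := ⟨v, 0, hv⟩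
  obtain ⟨b, hb, nb⟩ := h.exists_SS hz hr fun hc => hv (hz.fpf x hx (fun a ha =>
    congrArg Subtype.val (hc.isMulCommutative.is_comm.comm (⟨a, ha⟩ : A) ⟨x, hx⟩)) h1 v hxv)
  obtain ⟨u, u0, hu⟩ | ⟨i, u, u0, hu⟩ := exists_fixed ρ h.ne hz.ord hb.2.1 (hz.cen b hb.1).symm
  · exact (u0 (hz.fpf' (mem_zpowers z) hz.ne_one hu)).elim
  have zi : z ^ i ∈ zpowers z := pow_mem (mem_zpowers z) i
  have hy := hz.mul_mem_SS hb zi
  have ny : b * z ^ i ∉ zpowers z := fun e => nb ((mul_mem_cancel_right zi).1 e)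
  generalize b * z ^ i = y at hu hy ny
  obtain ⟨w, w1, w2⟩ := exists_max_fx (ρ := ρ) (SS r A z \ zpowers z) (n := Nat.card V) (k := 3)
    Nat.card_pos fun y hy => by
      obtain ⟨a, ha, hn⟩ := hz.exists_not_comm hy.1.1 hy.1.2.1 hy.2
      exact hz.cube hr hy.1 ha hn
  obtain ⟨s, s1, s2⟩ := h.count hz u0 w2
  have s3 : r ≤ s + 1 := by
    refine (orderOf_eq_prime hy.2.1 (fun e => ny (e ▸ one_mem _))).symm.le.trans ?_
    rw [← s1, ← Nat.card_zpowers, ← SetLike.coe_sort_coe, Nat.card_coe_set_eq]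
    refine Set.ncard_le_ncard (fun a ha => ?_) (Set.toFinite _)
    obtain ⟨k, rfl⟩ := mem_powers_iff_mem_zpowers.2 ha
    exact ⟨pow_mem (hz.mem_YY hy) k, linF_pow_fix hu k⟩
  have s4 : 2 ≤ s := by
    have := (Fact.out : r.Prime).two_le
    omega
  have s5 : R.index * s ≤ (s + 1) * w := by
    refine Nat.le_of_mul_le_mul_left ?_ (Nat.card_pos (α := hz.YY))
    have := hz.ncard_T_le
    calc _ = R.index * Nat.card hz.YY * s := by ring
      _ ≤ (s + 1) * Nat.card hz.YY * w := s2.trans (by gcongr)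
      _ = _ := by ring
  have s6 : 2 * R.index ≤ 3 * w := by
    refine Nat.le_of_mul_le_mul_left ?_ (show 0 < s by omega)
    nlinarith [Nat.mul_le_mul_right w s4]
  refine le_trans ?_ w1
  refine Nat.le_of_mul_le_mul_left ?_ (show 0 < 4 by decide)
  calc 4 * (R.index + 1) ^ 2 = (2 * R.index + 2) ^ 2 := by ring
    _ ≤ (3 * w + 2) ^ 2 := by gcongr
    _ ≤ (3 * w + 2) ^ 2 + w ^ 2 * (4 * w + 3) := Nat.le_add_right _ _
    _ = _ := by ring

theorem Lin.sq_fx (h : Lin 2 ρ A R) (hz : Cz 2 ρ A z) {y : M} (hy : y ∈ SS 2 A z \ zpowers z) :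
    Nat.card (fx ρ {y}) ^ 2 ≤ Nat.card V := by
  obtain ⟨a, ha, hn⟩ := hz.exists_not_comm hy.1.1 hy.1.2.1 hy.2
  have a1 := (LinT.sgn hz hy.1 ha).resolve_left fun e => hn e.symm
  rw [sq, ← Nat.card_prod]
  refine Nat.card_le_card_of_injective (fun t => t.1.1 + ρ a t.2.1) ?_
  rintro ⟨u, w⟩ ⟨u', w'⟩ e
  have e1 : u.1 - u'.1 = ρ a (w'.1 - w.1) := by
    have e' : u.1 + ρ a w.1 = u'.1 + ρ a w'.1 := e
    rw [map_sub, sub_eq_sub_iff_add_eq_add, e', add_comm]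
  have a2 := LinT.minus hz a1 (mem_fx_one.1 (sub_mem w'.2 w.2))
  rw [← e1, mem_fx_one.1 (sub_mem u.2 u'.2)] at a2
  have a3 := h.eq_zero_of_neg a2.symm
  rw [a3] at e1
  exact Prod.ext (Subtype.ext (sub_eq_zero.1 a3)) (Subtype.ext (sub_eq_zero.1
    (rep_injective ρ a (e1.symm.trans (map_zero _).symm))).symm)

theorem Cz.three_four (hz : Cz 2 ρ A z) {x u : M} (hx : x ∈ SS 2 A z) (hu : u ∈ hz.YY)
    (hn : x * u ≠ u * x) : 4 * (SS 2 A z \ zpowers z).ncard ≤ 3 * Nat.card hz.YY := by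
  set C : Set M := {c | c * x = x * c} with hC
  set T := SS 2 A z \ zpowers z with hT
  have hxY := hz.mem_YY hx
  have h1 : ((hz.YY : Set M) ∩ C).ncard ≤ ((hz.YY : Set M) \ C).ncard :=
    Set.ncard_le_ncard_of_injOn (fun c => c * u) (fun c hc => ⟨mul_mem hc.1 hu, fun e => hn (by
      have e1 : c * u * x = x * (c * u) := e
      have e2 : c * x = x * c := hc.2
      rw [← mul_assoc, ← e2, mul_assoc, mul_assoc] at e1
      exact (mul_left_cancel e1).symm)⟩) (fun a _ b _ e => mul_right_cancel e) (Set.toFinite _)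
  have h2 : (T \ C).ncard ≤ (((hz.YY : Set M) \ C) \ T).ncard := by
    refine Set.ncard_le_ncard_of_injOn (fun c => c * x) (fun c hc => ⟨⟨mul_mem (hz.mem_YY hc.1.1)
      hxY, fun e => hc.2 ?_⟩, fun e => hz.ne_one ?_⟩) (fun a _ b _ e => mul_right_cancel e)
      (Set.toFinite _)
    · have e1 : c * x * x = x * (c * x) := e
      rw [← mul_assoc] at e1
      exact mul_right_cancel e1
    · have a1 := (LinT.sgn hz hx hc.1.1.1).resolve_left fun e => hc.2 e.symm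
      have e1 : (c * x) ^ 2 = 1 := e.1.2.1
      rw [sq, mul_assoc, ← mul_assoc x, a1, ← mul_assoc c, ← mul_assoc c, hz.cen c hc.1.1.1,
        mul_assoc z, ← mul_assoc c, ← sq, hc.1.1.2.1, one_mul, mul_assoc, ← sq, hx.2.1, mul_one] at e1
      exact e1
  have h3 := Set.ncard_inter_add_ncard_sdiff_eq_ncard (hz.YY : Set M) C
  have h4 := Set.ncard_inter_add_ncard_sdiff_eq_ncard ((hz.YY : Set M) \ C) T
  have h5 := Set.ncard_inter_add_ncard_sdiff_eq_ncard T C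
  have h6 : (T ∩ C).ncard ≤ ((hz.YY : Set M) ∩ C).ncard :=
    Set.ncard_le_ncard (fun a ha => ⟨hz.mem_YY ha.1.1, ha.2⟩) (Set.toFinite _)
  have h7 : (T \ C).ncard ≤ (((hz.YY : Set M) \ C) ∩ T).ncard :=
    Set.ncard_le_ncard (fun a ha => ⟨⟨hz.mem_YY ha.1.1, ha.2⟩, ha.1⟩) (Set.toFinite _)
  rw [← SetLike.coe_sort_coe, Nat.card_coe_set_eq]
  omega

theorem Lin.core_all (h : Lin 2 ρ A R) (hz : Cz 2 ρ A z) {x y : M}
    (hx : x ∈ SS 2 A z) (hy : y ∈ SS 2 A z) (hx1 : x ∉ zpowers z)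
    (hy1 : y ∉ zpowers z) (hxy1 : x * y ∉ zpowers z) {v : V} (h0 : v ≠ 0) (vx : ρ x v = v)
    (vy : ρ y v = v) : (R.index + 1) ^ 2 ≤ Nat.card V := by
  have := h.nA
  have := hz.YY_normal
  have x1 : x ≠ 1 := fun e => hx1 (e ▸ one_mem _)
  have y1 : y ≠ 1 := fun e => hy1 (e ▸ one_mem _)
  have xy1 : x * y ≠ 1 := fun e => hxy1 (e ▸ one_mem _)
  by_cases hc : ∀ u ∈ hz.YY, u * x = x * u
  · exact h.sq_le_of_abelian (E := hz.YY ⊓ centralizer hz.YY) (fun a ha => ha.1.1)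
      (fun a ha b hb => hb.2 a ha.1) ⟨hz.mem_YY hx, hc⟩ x1 h0 vx
  push Not at hc
  obtain ⟨u, hu, hn⟩ := hc
  have t := hz.three_four hx hu hn.symm
  obtain ⟨w, w1, w2⟩ := exists_max_fx (ρ := ρ) (SS 2 A z \ zpowers z) (n := Nat.card V) (k := 2)
    Nat.card_pos fun y hy => h.sq_fx hz hy
  obtain ⟨s, s1, s2⟩ := h.count hz h0 w2
  have s3 : 3 < s + 1 := by
    rw [← s1, Set.three_lt_ncard_iff (Set.toFinite _)]
    have xy : x ≠ y := fun e => xy1 (by rw [← e, ← sq, hx.2.1])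
    exact ⟨1, x, y, x * y, ⟨one_mem _, by rw [map_one, Module.End.one_apply]⟩,
      ⟨hz.mem_YY hx, vx⟩, ⟨hz.mem_YY hy, vy⟩,
      ⟨mul_mem (hz.mem_YY hx) (hz.mem_YY hy), by rw [rep_mul, vy, vx]⟩, x1.symm, y1.symm, xy1.symm,
      xy, fun e => y1 (left_eq_mul.1 e), fun e => x1 (right_eq_mul.1 e)⟩
  have s5 : 4 * R.index * s ≤ 3 * (s + 1) * w := by
    refine Nat.le_of_mul_le_mul_left ?_ (Nat.card_pos (α := hz.YY))
    calc _ = 4 * (R.index * Nat.card hz.YY * s) := by ring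
      _ ≤ 4 * ((s + 1) * (SS 2 A z \ zpowers z).ncard * w) := by gcongr
      _ = (s + 1) * (4 * (SS 2 A z \ zpowers z).ncard) * w := by ring
      _ ≤ (s + 1) * (3 * Nat.card hz.YY) * w := by gcongr
      _ = _ := by ring
  have s6 : R.index ≤ w := by
    refine Nat.le_of_mul_le_mul_left ?_ (show 0 < 4 * s by omega)
    nlinarith [Nat.mul_le_mul_right w (show 3 ≤ s by omega)]
  exact le_trans (by gcongr) w1

theorem Lin.two_comm_all [Nontrivial V] (h : Lin 2 ρ A R) (hz : Cz 2 ρ A z) {x y : M}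
    (hx : x ∈ SS 2 A z) (hy : y ∈ SS 2 A z) (hxy : x * y = y * x) (hx1 : x ∉ zpowers z)
    (hy1 : y ∉ zpowers z) (hxy1 : x * y ∉ zpowers z) : (R.index + 1) ^ 2 ≤ Nat.card V := by
  obtain ⟨v, h0, vx⟩ := h.exists_fixed_two hz hx.2.1 (fun e => hx1 (e ▸ mem_zpowers x))
  by_cases h1 : v + ρ y v = 0
  · refine h.core_all hz hx (hz.mul_mem_SS hy (mem_zpowers z)) hx1
      (fun e => hy1 ((mul_mem_cancel_right (mem_zpowers z)).1 e))
      (fun e => hxy1 ((mul_mem_cancel_right (mem_zpowers z)).1 (by rwa [mul_assoc]))) h0 vx ?_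
    rw [rep_mul, hz.neg, map_neg]
    exact (eq_neg_of_add_eq_zero_left h1).symm
  · refine h.core_all hz hx hy hx1 hy1 hxy1 h1 ?_ ?_
    · rw [map_add, LinT.plus hxy vx, vx]
    · rw [map_add, ← rep_mul, ← sq, hy.2.1, map_one, Module.End.one_apply, add_comm]

theorem Lin.bound_all (h : Lin r ρ A R) {x : M} (hx : x ∈ A) (h1 : x ≠ 1) (hr : x ^ r = 1) {v : V}
    (hv : v ≠ 0) (hxv : ρ x v = v) : (R.index + 1) ^ 2 ≤ Nat.card V := by
  have : Nontrivial V := nontrivial_of_ne v 0 hv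
  rcases h.exists_cz (fun e => h1 (mem_bot.1 (e ▸ hx))) with k | ⟨z, hz⟩
  · exact k
  have hxz : x ∉ zpowers z := fun k => hv (hz.fpf' k h1 hxv)
  by_cases h2 : r = 2
  · subst h2
    by_cases h3 : ∀ y ∈ SS 2 A z, y ∈ zpowers z
    · exact h.two_max hz hx hr hxz h3
    push Not at h3
    obtain ⟨y, hy, hy1⟩ := h3
    by_cases h4 : ∀ x ∈ SS 2 A z, ∀ y ∈ SS 2 A z, x * y = y * x →
      x ∈ zpowers z ∨ y ∈ zpowers z ∨ x * y ∈ zpowers z
    · exact h.two_anti hz hy hy1 h4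
    push Not at h4
    obtain ⟨a, ha, b, hb, k1, k2, k3, k4⟩ := h4
    exact h.two_comm_all hz ha hb k1 k2 k3 k4
  · exact h.odd_all hz h2 hx h1 hv hxv

end

theorem lin_bound_all {p : ℕ} [Fact p.Prime] {H V : Type*} [Group H] [Finite H] [AddCommGroup V]
    [Module (ZMod p) V] [Finite V] (ρ : Representation (ZMod p) H V) (hi : Function.Injective ρ)
    (hp : ¬ p ∣ Nat.card H) {R : Subgroup H} [R.Normal] (hR : ∀ g ∉ R, ∀ v, ρ g v = v → v = 0)
    {x : H} (h1 : x ≠ 1) {v : V} (hv : v ≠ 0) (hxv : ρ x v = v) :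
    (R.index + 1) ^ 2 ≤ Nat.card V := by
  have hxR : x ∈ R := by_contra fun k => hv (hR x k v hxv)
  obtain ⟨r, hr, hrd⟩ := Nat.exists_prime_and_dvd (n := orderOf x) (fun e => h1 (orderOf_eq_one_iff.1 e))
  have : Fact r.Prime := ⟨hr⟩
  have ho : orderOf (x ^ (orderOf x / r)) = r := orderOf_pow_orderOf_div (orderOf_pos x).ne' hrd
  set y := x ^ (orderOf x / r) with hy
  have hyR : y ∈ R := pow_mem hxR _
  have hpg : IsPGroup r (zpowers (⟨y, hyR⟩ : R)) := IsPGroup.of_card (n := 1) (by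
    rw [Nat.card_zpowers, pow_one, ← orderOf_coe, ho])
  obtain ⟨P, hP⟩ := hpg.exists_le_sylow
  set A := (P : Subgroup R).map R.subtype with hA
  have hyA : y ∈ A := ⟨_, hP (mem_zpowers _), rfl⟩
  have hM : normalizer (A : Set H) ⊔ R = ⊤ := Sylow.normalizer_sup_eq_top P
  have hL : Lin r (ρ.comp (normalizer (A : Set H)).subtype) (A.subgroupOf (normalizer (A : Set H)))
      (R.subgroupOf (normalizer (A : Set H))) :=
    { inj := hi.comp Subtype.val_injective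
      ne := fun e => hp (e ▸ hrd.trans (orderOf_dvd_natCard x))
      pg := (P.isPGroup'.map _).comap_subtype
      nA := normal_in_normalizer
      nR := inferInstance
      le := comap_mono (map_subtype_le _)
      fpf := fun g hg => hR g hg }
  rw [← relIndex_eq_index hM]
  exact hL.bound_all (x := ⟨y, le_normalizer hyA⟩) hyA
    (fun e => hr.ne_one (ho.symm.trans (orderOf_eq_one_iff.2 (congrArg Subtype.val e))))
    (Subtype.ext (by rw [← ho]; exact pow_orderOf_eq_one y)) hv (linF_pow_fix hxv _)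

end Cfsg.Agent.DerG
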